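import Mathlib.GroupTheory.Sylow
import Mathlib.GroupTheory.SpecificGroups.Alternating
import Mathlib.GroupTheory.Perm.ViaEmbedding
import Mathlib.GroupTheory.Index
import Mathlib.GroupTheory.Perm.Sign
import Mathlib.GroupTheory.QuotientGroup.Basic
import Mathlib.Tactic.NormNum.Prime
import Mathlib.Tactic.Group

/-!
Two criteria against alternating sections (owner: helper33): fusion in an abelian Sylow `5`-container induced by
elements whose sixth power lies in it excludes degrees `≥ 7`; a subgroup of odd index with abelian factor over an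
abelian subgroup of `2`-rank at most two excludes degrees `≥ 8`.
-/

set_option autoImplicit false

namespace Cfsg.Agent.ChevTwSec

/-- Even permutations of `k` points inside a larger alternating group. -/
noncomputable def altLift {k r : ℕ} (h : k ≤ r) : ↥(alternatingGroup (Fin k)) →* ↥(alternatingGroup (Fin r)) :=
  ((Equiv.Perm.viaEmbeddingHom (Fin.castLEEmb h)).comp (alternatingGroup (Fin k)).subtype).codRestrict _
    fun e => by
      rw [Equiv.Perm.mem_alternatingGroup]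
      show Equiv.Perm.sign (Equiv.Perm.viaEmbedding (e : Equiv.Perm (Fin k)) (Fin.castLEEmb h)) = 1
      rw [Equiv.Perm.viaEmbedding, Equiv.Perm.sign_extendDomain]
      exact Equiv.Perm.mem_alternatingGroup.1 e.2

theorem altLift_injective {k r : ℕ} (h : k ≤ r) : Function.Injective (altLift h) := fun a b e =>
  Subtype.ext (Equiv.Perm.viaEmbeddingHom_injective _ (congrArg Subtype.val e))

/-- In `A_r`, `r ≥ 7`, some element of order five is conjugate to its square. -/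
theorem five_sq_conj {r : ℕ} (hr : 7 ≤ r) :
    ∃ c s : ↥(alternatingGroup (Fin r)), orderOf c = 5 ∧ s * c * s⁻¹ = c ^ 2 := by
  let c0 : Equiv.Perm (Fin 7) :=
    ⟨![1, 2, 3, 4, 0, 5, 6], ![4, 0, 1, 2, 3, 5, 6], by decide, by decide⟩
  let s0 : Equiv.Perm (Fin 7) :=
    ⟨![0, 2, 4, 1, 3, 6, 5], ![0, 3, 1, 4, 2, 6, 5], by decide, by decide⟩
  have hc : Equiv.Perm.sign c0 = 1 := by decide +kernel
  have hs : Equiv.Perm.sign s0 = 1 := by decide +kernel
  have hconj : s0 * c0 * s0⁻¹ = c0 ^ 2 := by decide +kernel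
  have hord : orderOf c0 = 5 :=
    orderOf_eq_prime (hp := ⟨by norm_num⟩) (by decide +kernel) (by decide +kernel)
  refine ⟨altLift hr ⟨c0, Equiv.Perm.mem_alternatingGroup.2 hc⟩,
    altLift hr ⟨s0, Equiv.Perm.mem_alternatingGroup.2 hs⟩, ?_, ?_⟩
  · rw [orderOf_injective _ (altLift_injective hr), ← Subgroup.orderOf_coe, hord]
  · rw [← map_inv, ← map_mul, ← map_mul, ← map_pow]
    exact congrArg _ (Subtype.ext hconj)

/-- A Sylow subgroup of the preimage of a `p`-subgroup maps onto it. -/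
theorem exists_sylow_onto {H A : Type*} [Group H] [Finite H] [Group A] {p : ℕ} [hp : Fact p.Prime]
    (ψ : H →* A) (hψ : Function.Surjective ψ) (Q : Subgroup A) (hQ : IsPGroup p ↥Q) :
    ∃ P : Sylow p ↥(Q.comap ψ), ∀ a ∈ Q, ∃ x ∈ (P : Subgroup ↥(Q.comap ψ)), ψ x = a := by
  haveI : Finite A := Finite.of_surjective _ hψ
  let P : Sylow p ↥(Q.comap ψ) := default
  let ψL : ↥(Q.comap ψ) →* ↥Q := (ψ.comp (Q.comap ψ).subtype).codRestrict _ fun x => x.2
  have hψL : Function.Surjective ψL := fun y => by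
    obtain ⟨x, hx⟩ := hψ y.1
    exact ⟨⟨x, show ψ x ∈ Q from hx ▸ y.2⟩, Subtype.ext hx⟩
  have hmapP : Subgroup.map ψL (P : Subgroup ↥(Q.comap ψ)) = ⊤ := by
    refine Subgroup.index_eq_one.1 ?_
    have h1 : ¬ p ∣ (Subgroup.map ψL (P : Subgroup ↥(Q.comap ψ))).index :=
      fun h => P.not_dvd_index (h.trans (Subgroup.index_map_dvd _ hψL))
    obtain ⟨k, hk⟩ := IsPGroup.iff_card.1 hQ
    have h2 := (Subgroup.map ψL (P : Subgroup ↥(Q.comap ψ))).index_dvd_card
    rw [hk] at h2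
    obtain ⟨j, -, hj⟩ := (Nat.dvd_prime_pow hp.out).1 h2
    rcases j with _ | j
    · rw [hj, pow_zero]
    · exact absurd (hj ▸ dvd_pow_self p (Nat.succ_ne_zero j)) h1
  refine ⟨P, fun a ha => ?_⟩
  have h : (⟨a, ha⟩ : ↥Q) ∈ Subgroup.map ψL (P : Subgroup ↥(Q.comap ψ)) := by rw [hmapP]; trivial
  obtain ⟨x, hx, e⟩ := h
  exact ⟨x, hx, congrArg Subtype.val e⟩

theorem no_alt_seven_of_five {G : Type*} [Group G] [Finite G] (T0 : Subgroup G)
    (hcomm : ∀ a ∈ T0, ∀ b ∈ T0, a * b = b * a) (hidx : ¬ 5 ∣ T0.index)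
    (hfus : ∀ g : G, ∃ n : G, n ^ 6 ∈ T0 ∧ (∀ x ∈ T0, n * x * n⁻¹ ∈ T0) ∧
      ∀ x ∈ T0, g * x * g⁻¹ ∈ T0 → g * x * g⁻¹ = n * x * n⁻¹)
    {r : ℕ} (H : Subgroup G) (ψ : ↥H →* ↥(alternatingGroup (Fin r))) (hψ : Function.Surjective ψ) :
    r ≤ 6 := by
  classical
  by_contra hr
  haveI h5 : Fact (Nat.Prime 5) := ⟨by norm_num⟩
  obtain ⟨c, s, hc, hs⟩ := five_sq_conj (r := r) (by omega)
  have hcp : IsPGroup 5 ↥(Subgroup.zpowers c) :=
    IsPGroup.of_card (n := 1) (by rw [Nat.card_zpowers, hc, pow_one])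
  obtain ⟨P, hP⟩ := exists_sylow_onto ψ hψ _ hcp
  let L : Subgroup ↥H := (Subgroup.zpowers c).comap ψ
  let P' : Subgroup ↥H := (P : Subgroup ↥L).map L.subtype
  obtain ⟨x, hxP, hxc⟩ : ∃ x ∈ P', ψ x = c := by
    obtain ⟨x, hx, e⟩ := hP c (Subgroup.mem_zpowers c)
    exact ⟨x, ⟨x, hx, rfl⟩, e⟩
  -- Frattini
  obtain ⟨k, hk⟩ := hψ s
  have hkL : ∀ l : ↥H, l ∈ L → k * l * k⁻¹ ∈ L := fun l hl => by
    obtain ⟨i, hi⟩ := Subgroup.mem_zpowers_iff.1 (show ψ l ∈ Subgroup.zpowers c from hl)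
    refine Subgroup.mem_zpowers_iff.2 ⟨2 * i, ?_⟩
    rw [map_mul, map_mul, map_inv, hk, ← hi, ← conj_zpow, hs, zpow_mul]
    norm_cast
  have hkinv : ∀ l : ↥H, k * l * k⁻¹ ∈ L → l ∈ L := fun l hl => by
    obtain ⟨i, hi⟩ := Subgroup.mem_zpowers_iff.1 (show ψ (k * l * k⁻¹) ∈ Subgroup.zpowers c from hl)
    refine Subgroup.mem_zpowers_iff.2 ⟨3 * i, ?_⟩
    rw [map_mul, map_mul, map_inv, hk] at hi
    have e3 : s * c ^ 3 * s⁻¹ = c := by
      rw [← conj_pow, hs, ← pow_mul, show 2 * 3 = 5 + 1 from rfl, pow_succ, ← hc, pow_orderOf_eq_one, one_mul]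
    have e : s * c ^ ((3 : ℤ) * i) * s⁻¹ = s * ψ l * s⁻¹ := by
      rw [← hi, zpow_mul, ← conj_zpow, zpow_ofNat, e3]
    exact mul_left_cancel (mul_right_cancel e)
  let θ : ↥L →* ↥L := MonoidHom.mk' (fun l => ⟨k * l * k⁻¹, hkL l l.2⟩) fun a b => Subtype.ext (by simp)
  have hθs : Function.Surjective θ := fun b =>
    ⟨⟨k⁻¹ * b * k, hkinv _ (by simpa [mul_assoc] using b.2)⟩, Subtype.ext (by simp [θ, mul_assoc])⟩
  let Q : Sylow 5 ↥L := P.mapSurjective hθs
  obtain ⟨l, hl⟩ := MulAction.exists_smul_eq ↥L Q P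
  set k' : ↥H := (l : ↥H) * k with hk'
  have hnormP : ∀ y ∈ P', k' * y * k'⁻¹ ∈ P' := by
    rintro _ ⟨y, hy, rfl⟩
    have h1 : θ y ∈ (Q : Subgroup ↥L) := ⟨y, hy, rfl⟩
    have h2 : l * θ y * l⁻¹ ∈ (P : Subgroup ↥L) := by
      rw [← hl]
      exact ⟨θ y, h1, by simp⟩
    exact ⟨_, h2, by simp [hk', θ, mul_assoc]⟩
  have hk'c : ψ k' * c * (ψ k')⁻¹ = c ^ 2 := by
    obtain ⟨i, hi⟩ := Subgroup.mem_zpowers_iff.1 (show ψ (l : ↥H) ∈ Subgroup.zpowers c from l.2)
    rw [hk', map_mul, hk, ← hi]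
    calc c ^ i * s * c * (c ^ i * s)⁻¹ = c ^ i * (s * c * s⁻¹) * (c ^ i)⁻¹ := by group
      _ = c ^ 2 := by rw [hs]; group
  -- conjugate into `T0`
  have hPP : IsPGroup 5 ↥((P'.map H.subtype)) := (P.isPGroup'.map _).map _
  obtain ⟨S, hS⟩ := hPP.exists_le_sylow
  obtain ⟨S0, hS0⟩ : ∃ S0 : Sylow 5 G, (S0 : Subgroup G) ≤ T0 := by
    let S1 : Sylow 5 ↥T0 := default
    refine ⟨(S1.isPGroup'.map T0.subtype).toSylow ?_, Subgroup.map_subtype_le _⟩
    rw [Subgroup.index_map_subtype]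
    exact Nat.Prime.not_dvd_mul h5.out S1.not_dvd_index hidx
  obtain ⟨g, hg⟩ := MulAction.exists_smul_eq G S S0
  have hinto : ∀ y ∈ P', g * (y : G) * g⁻¹ ∈ T0 := fun y hy => hS0 (by
    rw [← hg]
    exact ⟨(y : G), hS ⟨y, hy, rfl⟩, by simp⟩)
  obtain ⟨n, hn6, hnT, hn⟩ := hfus (g * k' * g⁻¹)
  have hstep : ∀ y ∈ P', g * ((k' * y * k'⁻¹ : ↥H) : G) * g⁻¹ = n * (g * (y : G) * g⁻¹) * n⁻¹ := fun y hy => by
    have h1 := hinto _ (hnormP y hy)
    push_cast at h1 ⊢
    have e : g * k' * g⁻¹ * (g * y * g⁻¹) * (g * k' * g⁻¹)⁻¹ = g * (k' * y * k'⁻¹ : G) * g⁻¹ := by push_cast; group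
    have h2 := hn _ (hinto y hy) (by rw [e]; exact h1)
    rw [e] at h2
    exact h2
  have hiter : ∀ j : ℕ, ∀ y ∈ P', k' ^ j * y * (k' ^ j)⁻¹ ∈ P' ∧
      g * ((k' ^ j * y * (k' ^ j)⁻¹ : ↥H) : G) * g⁻¹ = n ^ j * (g * (y : G) * g⁻¹) * (n ^ j)⁻¹ := by
    intro j
    induction j with
    | zero => intro y hy; simp [hy]
    | succ j ih =>
      intro y hy
      obtain ⟨h1, h2⟩ := ih y hy
      have e : k' ^ (j + 1) * y * (k' ^ (j + 1))⁻¹ = k' * (k' ^ j * y * (k' ^ j)⁻¹) * k'⁻¹ := by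
        rw [pow_succ']; group
      rw [e]
      refine ⟨hnormP _ h1, ?_⟩
      rw [hstep _ h1, h2, pow_succ']
      group
  have hfix : k' ^ 6 * x * (k' ^ 6)⁻¹ = x := by
    obtain ⟨-, h2⟩ := hiter 6 x hxP
    rw [hcomm _ hn6 _ (hinto x hxP), mul_inv_cancel_right] at h2
    exact Subtype.ext (mul_left_cancel (mul_right_cancel h2))
  have hpow : ∀ j : ℕ, (ψ k') ^ j * c * ((ψ k') ^ j)⁻¹ = c ^ (2 ^ j) := by
    intro j
    induction j with
    | zero => simp
    | succ j ih =>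
      calc (ψ k') ^ (j + 1) * c * ((ψ k') ^ (j + 1))⁻¹
          = ψ k' * ((ψ k') ^ j * c * ((ψ k') ^ j)⁻¹) * (ψ k')⁻¹ := by rw [pow_succ']; group
        _ = c ^ 2 ^ (j + 1) := by rw [ih, ← conj_pow, hk'c, ← pow_mul, pow_succ']
  have h := congrArg ψ hfix
  rw [map_mul, map_mul, map_inv, map_pow, hxc, hpow 6] at h
  have h' : c ^ 63 = 1 := mul_right_cancel (b := c) (by
    rw [← pow_succ, one_mul]
    exact h)
  exact absurd (hc ▸ orderOf_dvd_of_pow_eq_one h' :) (by decide)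

/-! ### A subgroup of order `64` of `A₈` -/

/-- An involution of eight points from its values. -/
def inv8 (f : Fin 8 → Fin 8) (h : ∀ i, f (f i) = i) : Equiv.Perm (Fin 8) := Function.Involutive.toPerm f h

/-- Four involutions of `A₈`. -/
def gens8 : Fin 4 → Equiv.Perm (Fin 8) :=
  ![inv8 ![0, 1, 2, 3, 5, 4, 7, 6] (by decide), inv8 ![4, 5, 6, 7, 0, 1, 2, 3] (by decide),
    inv8 ![0, 1, 2, 3, 6, 7, 4, 5] (by decide), inv8 ![0, 1, 3, 2, 4, 5, 7, 6] (by decide)]

/-- The group they generate, value lists packed in base eight. -/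
def table8 : List ℕ :=
  [16434824, 14571144, 11789960, 9926280, 14599368, 16405704, 9954504, 11760840, 14599809, 16406145,
   9954945, 11761281, 16434369, 14570689, 11789505, 9925825, 16433690, 14570010, 11788826, 9925146,
   14598234, 16404570, 9953370, 11759706, 14598675, 16405011, 9953811, 11760147, 16433235, 14569555,
   11788371, 9924691, 6852524, 4988844, 2207660, 343980, 5017068, 6823404, 372204, 2178540,
   5017509, 6823845, 372645, 2178981, 6852069, 4988389, 2207205, 343525, 6851390, 4987710,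
   2206526, 342846, 5015934, 6822270, 371070, 2177406, 5016375, 6822711, 371511, 2177847,
   6850935, 4987255, 2206071, 342391]

/-- The values packed in a code. -/
def val8 (e : ℕ) (i : Fin 8) : Fin 8 := ⟨(e >>> (3 * i.val)) % 8, Nat.mod_lt _ (by norm_num)⟩

theorem table8_one : ∃ e ∈ table8, ∀ i, val8 e i = i := by decide +kernel

theorem table8_step : ∀ j : Fin 4, ∀ e ∈ table8, ∃ e' ∈ table8, ∀ i, val8 e' i = gens8 j (val8 e i) := by
  decide +kernel

theorem table8_pow : ∀ e ∈ table8, ∀ i,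
    val8 e (val8 e (val8 e (val8 e (val8 e (val8 e (val8 e (val8 e i))))))) = i := by decide +kernel

theorem gens8_inv : ∀ j : Fin 4, (gens8 j)⁻¹ = gens8 j := by decide +kernel

theorem gens8_even : ∀ j : Fin 4, Equiv.Perm.sign (gens8 j) = 1 := by decide +kernel

/-- The four involutions inside `A_r`. -/
noncomputable def gensA {r : ℕ} (h : 8 ≤ r) (j : Fin 4) : ↥(alternatingGroup (Fin r)) :=
  altLift h ⟨gens8 j, Equiv.Perm.mem_alternatingGroup.2 (gens8_even j)⟩

theorem isPGroup_gensA {r : ℕ} (h : 8 ≤ r) : IsPGroup 2 ↥(Subgroup.closure (Set.range (gensA h))) := by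
  set S := Subgroup.closure (Set.range fun j => (⟨gens8 j, Equiv.Perm.mem_alternatingGroup.2 (gens8_even j)⟩ :
    ↥(alternatingGroup (Fin 8))))
  have hS : Subgroup.closure (Set.range (gensA h)) = S.map (altLift h) := by
    rw [MonoidHom.map_closure, ← Set.range_comp]
    rfl
  rw [hS]
  refine IsPGroup.map ?_ _
  have htab : ∀ g ∈ S, ∃ e ∈ table8, ∀ i, val8 e i = (g : Equiv.Perm (Fin 8)) i := by
    intro g hg
    induction hg using Subgroup.closure_induction_left with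
    | one => simpa using table8_one
    | mul_left x hx y _ ih =>
      obtain ⟨j, rfl⟩ := hx
      obtain ⟨e, he, hval⟩ := ih
      obtain ⟨e', he', hval'⟩ := table8_step j e he
      exact ⟨e', he', fun i => by rw [hval', hval]; rfl⟩
    | inv_mul_cancel x hx y _ ih =>
      obtain ⟨j, rfl⟩ := hx
      obtain ⟨e, he, hval⟩ := ih
      obtain ⟨e', he', hval'⟩ := table8_step j e he
      exact ⟨e', he', fun i => by
        rw [hval', hval]
        show gens8 j _ = ((gens8 j)⁻¹ * _) i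
        rw [gens8_inv]; rfl⟩
  rintro ⟨g, hg⟩
  refine ⟨3, Subtype.ext (Subtype.ext (Equiv.ext fun i => ?_))⟩
  obtain ⟨e, he, hval⟩ := htab g hg
  have := table8_pow e he i
  simp only [hval] at this
  simpa [pow_succ, Equiv.Perm.mul_apply] using this

theorem comm_facts :
    let e := fun p : Fin 4 × Fin 4 => gens8 p.1 * gens8 p.2 * (gens8 p.1)⁻¹ * (gens8 p.2)⁻¹
    (∀ p ∈ [(0, 1), (2, 3), (2, 1)], e p * e p = 1) ∧
      Function.Injective fun a : Fin 2 × Fin 2 × Fin 2 =>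
        e (0, 1) ^ a.1.val * e (2, 3) ^ a.2.1.val * e (2, 1) ^ a.2.2.val := by
  decide +kernel

/-- No `A₈`-section when a subgroup of odd index is abelian over an abelian subgroup of `2`-rank at most two. -/
theorem no_alt_eight_of_rank {G : Type*} [Group G] [Finite G] (T M : Subgroup G)
    (hcomm : ∀ a ∈ T, ∀ b ∈ T, a * b = b * a) (hMT : ∀ a ∈ M, ∀ b ∈ M, a * b * a⁻¹ * b⁻¹ ∈ T)
    (hidx : ¬ 2 ∣ M.index) (h2 : Nat.card {x : G // x ∈ T ∧ x * x = 1} ≤ 4)
    {r : ℕ} (H : Subgroup G) (ψ : ↥H →* ↥(alternatingGroup (Fin r))) (hψ : Function.Surjective ψ) :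
    r ≤ 7 := by
  classical
  by_contra hr
  haveI ht : Fact (Nat.Prime 2) := ⟨Nat.prime_two⟩
  have h8 : 8 ≤ r := by omega
  obtain ⟨P, hP⟩ := exists_sylow_onto ψ hψ _ (isPGroup_gensA h8)
  let L : Subgroup ↥H := (Subgroup.closure (Set.range (gensA h8))).comap ψ
  have hPP : IsPGroup 2 ↥(((P : Subgroup ↥L).map L.subtype).map H.subtype) := (P.isPGroup'.map _).map _
  obtain ⟨S, hS⟩ := hPP.exists_le_sylow
  obtain ⟨S0, hS0⟩ : ∃ S0 : Sylow 2 G, (S0 : Subgroup G) ≤ M := by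
    let S1 : Sylow 2 ↥M := default
    refine ⟨(S1.isPGroup'.map M.subtype).toSylow ?_, Subgroup.map_subtype_le _⟩
    rw [Subgroup.index_map_subtype]
    exact Nat.Prime.not_dvd_mul ht.out S1.not_dvd_index hidx
  obtain ⟨g, hg⟩ := MulAction.exists_smul_eq G S S0
  choose lift hliftP hlift using fun j => hP (gensA h8 j) (Subgroup.subset_closure ⟨j, rfl⟩)
  have hinM : ∀ j, g * (((lift j : ↥H) : G)) * g⁻¹ ∈ M := fun j => hS0 (by
    rw [← hg]
    exact ⟨((lift j : ↥H) : G), hS ⟨_, ⟨_, hliftP j, rfl⟩, rfl⟩, by simp⟩)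
  -- the conjugate of `T` inside `H`
  let T' : Subgroup ↥H := T.comap ((MulAut.conj g).toMonoidHom.comp H.subtype)
  let e : Fin 4 × Fin 4 → ↥H := fun p =>
    (lift p.1 : ↥H) * lift p.2 * (lift p.1 : ↥H)⁻¹ * (lift p.2 : ↥H)⁻¹
  have heT : ∀ p, e p ∈ T' := fun p => by
    show g * ((e p : ↥H) : G) * g⁻¹ ∈ T
    have := hMT _ (hinM p.1) _ (hinM p.2)
    convert this using 1
    simp only [e, Subgroup.coe_mul, Subgroup.coe_inv]
    group
  have hT'comm : ∀ a ∈ T', ∀ b ∈ T', a * b = b * a := by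
    intro a ha b hb
    have h := hcomm _ ha _ hb
    simp only [MonoidHom.coe_comp, Function.comp_apply, MulEquiv.coe_toMonoidHom, MulAut.conj_apply,
      Subgroup.coe_subtype, conj_mul] at h
    exact Subtype.ext (mul_left_cancel (mul_right_cancel h))
  -- squaring on `T'` has at most four kernel elements
  let sq : ↥T' →* ↥T' := MonoidHom.mk' (fun x => x * x) fun a b => by
    have h := Subtype.ext (hT'comm b.1 b.2 a.1 a.2) (a1 := b * a) (a2 := a * b)
    show a * b * (a * b) = a * a * (b * b)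
    rw [mul_assoc a b, ← mul_assoc b a b, h, mul_assoc a b b, ← mul_assoc a a]
  have hker : Nat.card ↥sq.ker ≤ 4 := by
    refine le_trans (Nat.card_le_card_of_injective
      (fun x => (⟨g * ((x.1.1 : ↥H) : G) * g⁻¹, x.1.2, by
        rw [conj_mul]
        have hx : x.1 * x.1 = 1 := x.2
        have hx' : ((x.1.1 : ↥H) : G) * ((x.1.1 : ↥H) : G) = 1 := by
          simpa using congrArg (fun y : ↥T' => ((y : ↥H) : G)) hx
        rw [hx', mul_one, mul_inv_cancel]⟩ : {x : G // x ∈ T ∧ x * x = 1})) ?_) h2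
    intro a b hab
    exact Subtype.ext (Subtype.ext (Subtype.ext (mul_left_cancel (mul_right_cancel (congrArg Subtype.val hab)))))
  -- the elementary group of order eight
  let ψT : ↥T' →* ↥(alternatingGroup (Fin r)) := ψ.comp T'.subtype
  let b : Fin 4 × Fin 4 → ↥T' := fun p => ⟨e p, heT p⟩
  have hb : ∀ p, ψT (b p) =
      gensA h8 p.1 * gensA h8 p.2 * (gensA h8 p.1)⁻¹ * (gensA h8 p.2)⁻¹ := fun p => by
    show ψ (e p) = _
    simp [e, hlift]
  have hval : ∀ p, ψT (b p) = altLift h8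
      ⟨gens8 p.1 * gens8 p.2 * (gens8 p.1)⁻¹ * (gens8 p.2)⁻¹, Equiv.Perm.mem_alternatingGroup.2 (by
        simp [gens8_even])⟩ := fun p => by
    rw [hb]
    simp only [gensA, ← map_inv, ← map_mul]
    rfl
  obtain ⟨hsq, hinj⟩ := comm_facts
  let f : Fin 2 × Fin 2 × Fin 2 → ↥T' := fun a => b (0, 1) ^ a.1.val * b (2, 3) ^ a.2.1.val * b (2, 1) ^ a.2.2.val
  have hf : Function.Injective (ψT ∘ f) := fun a a' h => by
    simp only [Function.comp_apply, f, map_mul, map_pow, hval] at h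
    simp only [← map_pow, ← map_mul] at h
    have := congrArg Subtype.val (altLift_injective h8 h)
    exact hinj this
  have hsqker : ∀ x : ↥T', sq x ∈ ψT.ker ↔ ψT x * ψT x = 1 := fun x => by
    rw [MonoidHom.mem_ker, ← map_mul]
    rfl
  let A : Subgroup ↥T' := ψT.ker.comap sq
  have hbA : ∀ p ∈ [((0 : Fin 4), (1 : Fin 4)), (2, 3), (2, 1)], b p ∈ A := fun p hp => by
    show sq (b p) ∈ ψT.ker
    rw [hsqker, hval, ← map_mul]
    exact (congrArg _ (Subtype.ext (hsq p hp))).trans (map_one _)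
  have hfA : ∀ a, f a ∈ A := fun a => mul_mem (mul_mem (pow_mem (hbA _ (by simp)) _) (pow_mem (hbA _ (by simp)) _))
    (pow_mem (hbA _ (by simp)) _)
  have h1 : 8 * Nat.card ↥ψT.ker ≤ Nat.card ↥A := by
    have hinj2 : Function.Injective fun x : (Fin 2 × Fin 2 × Fin 2) × ↥ψT.ker =>
        (⟨f x.1 * x.2.1, mul_mem (hfA x.1) (by
          show sq x.2.1 ∈ ψT.ker
          exact mul_mem x.2.2 x.2.2)⟩ : ↥A) := by
      intro x y h
      have h' := congrArg Subtype.val h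
      have he : ψT (f x.1) = ψT (f y.1) := by
        have := congrArg ψT h'
        simpa [MonoidHom.mem_ker.1 x.2.2, MonoidHom.mem_ker.1 y.2.2] using this
      have e1 := hf he
      refine Prod.ext e1 (Subtype.ext ?_)
      have h'' : f x.1 * x.2.1 = f y.1 * y.2.1 := h'
      rw [e1] at h''
      exact mul_left_cancel h''
    have := Nat.card_le_card_of_injective _ hinj2
    simpa [Nat.card_prod] using this
  have h2' : Nat.card ↥A ≤ Nat.card ↥sq.ker * Nat.card ↥ψT.ker := by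
    let sA : ↥A →* ↥ψT.ker := (sq.comp A.subtype).codRestrict _ fun x => x.2
    rw [← sA.ker.card_mul_index, Subgroup.index_ker]
    refine Nat.mul_le_mul ?_ (Nat.card_le_card_of_injective _ Subtype.val_injective)
    refine Nat.card_le_card_of_injective (fun x : ↥sA.ker => (⟨x.1.1, congrArg Subtype.val x.2⟩ : ↥sq.ker))
      fun x y h => Subtype.ext (Subtype.ext (congrArg Subtype.val h :))
  have h3 : 8 * Nat.card ↥ψT.ker ≤ 4 * Nat.card ↥ψT.ker :=
    h1.trans (h2'.trans (Nat.mul_le_mul_right _ hker))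
  have : 0 < Nat.card ↥ψT.ker := Nat.card_pos
  omega

end Cfsg.Agent.ChevTwSec
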