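import Cfsg.Agent.ChevTw.TwBN
import Cfsg.Agent.ChevGrp.Thms
import Cfsg.Agent.ChevGrp.UnipCount
import Cfsg.Agent.BNPair.Parabolic

/-!
Fusion inside the torus of a group with a decomposition `U N U` is induced by `N` (owner: helper33).
-/

set_option autoImplicit false

namespace Cfsg.Agent.ChevTwSec

open Cfsg.Lie Cfsg.Agent.ChevGrp Cfsg.Agent.ChevTw
open scoped MatrixGroups

/-- Fusion of elements of `H` by `u n v` is induced by `n`. -/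
theorem fusion_eq {G : Type*} [Group G] {p : ℕ} {U H : Subgroup G} (hU : IsPGroup p ↥U)
    (hH : Nat.Coprime (Nat.card ↥H) p) (hUH : U ⊓ H = ⊥) (hnorm : ∀ h ∈ H, ∀ u ∈ U, h * u * h⁻¹ ∈ U)
    {u n v x y : G} (hu : u ∈ U) (hv : v ∈ U) (hn : ∀ h ∈ H, n * h * n⁻¹ ∈ H) (hx : x ∈ H) (hy : y ∈ H)
    (h : u * n * v * x * (u * n * v)⁻¹ = y) : n * x * n⁻¹ = y := by
  set u1 := x⁻¹ * v * x * v⁻¹ with hu1
  set u2 := y⁻¹ * u⁻¹ * y * u with hu2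
  have h1 : u1 ∈ U := by
    refine mul_mem ?_ (inv_mem hv)
    simpa using hnorm x⁻¹ (inv_mem hx) v hv
  have h2 : u2 ∈ U := by
    refine mul_mem ?_ hu
    simpa using hnorm y⁻¹ (inv_mem hy) u⁻¹ (inv_mem hu)
  set z := (n * x * n⁻¹)⁻¹ * y with hz
  have hzH : z ∈ H := mul_mem (inv_mem (hn x hx)) hy
  have key : n * u1 * n⁻¹ = z * u2 := by
    rw [hz, hu1, hu2, ← h]
    group
  obtain ⟨k, hk⟩ := hU ⟨u1, h1⟩
  have hk' : u1 ^ p ^ k = 1 := congrArg Subtype.val hk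
  have hzk : (z * u2) ^ p ^ k = 1 := by rw [← key, conj_pow, hk']; simp
  have hpow : ∀ j : ℕ, ∃ w ∈ U, (z * u2) ^ j = z ^ j * w := by
    intro j
    induction j with
    | zero => exact ⟨1, one_mem _, by simp⟩
    | succ j ih =>
      obtain ⟨w, hw, e⟩ := ih
      refine ⟨z⁻¹ * w * z * u2, mul_mem ?_ h2, ?_⟩
      · simpa using hnorm z⁻¹ (inv_mem hzH) w hw
      · rw [pow_succ, e, pow_succ]
        group
  obtain ⟨w, hw, e⟩ := hpow (p ^ k)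
  rw [hzk] at e
  have hzU : z ^ p ^ k = 1 := by
    have hm : z ^ p ^ k ∈ U ⊓ H := Subgroup.mem_inf.2
      ⟨by rw [eq_inv_of_mul_eq_one_left e.symm]; exact inv_mem hw, pow_mem hzH _⟩
    rwa [hUH, Subgroup.mem_bot] at hm
  have hz1 : z = 1 := by
    have h3 : orderOf z ∣ p ^ k := orderOf_dvd_of_pow_eq_one hzU
    have h4 : orderOf z ∣ Nat.card ↥H := Subgroup.orderOf_dvd_natCard H hzH
    have := Nat.eq_one_of_dvd_coprimes (hH.pow_right k) h4 h3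
    exact orderOf_eq_one_iff.1 this
  rwa [hz, inv_mul_eq_one] at hz1

/-- The torus data of a twisted group. -/
theorem torus_fusion {D : ChevalleyDatum} {F : Type*} [Field F] [Finite F] {len : ℕ → ℕ} {hS : Rules D F}
    {T : Twist (glSys hS)} {ι : Type*} [Fintype ι] [DecidableEq ι] {O : Orbits T ι} (W : TwGroup O)
    (hR : RootTable D len) {ks0 : List ι} (h0 : IsLongest O ks0) (p : ℕ) [Fact p.Prime] [CharP F p]
    (hH : Nat.Coprime (Nat.card ↥((glSys hS).Hbar ⊓ W.Tw)) p) {g : GL D.Idx F} (hg : g ∈ W.Tw) :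
    ∃ n ∈ (glSys hS).Nbar ⊓ W.Tw, ∀ x ∈ (glSys hS).Hbar ⊓ W.Tw,
      g * x * g⁻¹ ∈ (glSys hS).Hbar ⊓ W.Tw → g * x * g⁻¹ = n * x * n⁻¹ := by
  obtain ⟨P, hPB, hPN, -⟩ := W.exists_BNPair_gens hS hR h0
  obtain ⟨b, hb, n, b', hb', e⟩ : ∃ b ∈ P.B, ∃ n : P.N, ∃ b' ∈ P.B, (⟨g, hg⟩ : ↥W.Tw) = b * n * b' := by
    obtain ⟨b, hb, n, -, b', hb', e⟩ := Cfsg.Agent.BNPair.exists_eq_mul_mul P (⟨g, hg⟩ : ↥W.Tw)
    exact ⟨b, hb, n, b', hb', e⟩
  have hc0 : T.Comm (O.word ks0) := O.comm_word hR ks0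
  have hBm : ∀ c ∈ P.B, (c : GL D.Idx F) ∈ (glSys hS).Bbar := fun c hc => by
    rw [hPB] at hc
    exact (Subgroup.mem_inf.1 (Subgroup.mem_subgroupOf.1 hc)).1
  have hNm : (n : GL D.Idx F) ∈ (glSys hS).Nbar := by
    have := n.2
    simp only [hPN] at this
    exact (Subgroup.mem_inf.1 (Subgroup.mem_subgroupOf.1 this)).1
  obtain ⟨u, hu, h1, hh1, e1⟩ := W.B_decomp hS hR hc0 (h0.invSet_eq hR) (hBm b hb) b.2
  obtain ⟨v', hv', h2, hh2, e2⟩ := W.B_decomp hS hR hc0 (h0.invSet_eq hR) (hBm b' hb') b'.2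
  have hnorm : ∀ h ∈ (glSys hS).Hbar ⊓ W.Tw, ∀ x ∈ (glSys hS).Ubar ⊓ W.Tw,
      h * x * h⁻¹ ∈ (glSys hS).Ubar ⊓ W.Tw := fun h hh x hx =>
    Subgroup.mem_inf.2 ⟨(Subgroup.mem_normalizer_iff.1
      ((glSys hS).Hbar_le_normalizer_Ubar hS hR (Subgroup.mem_inf.1 hh).1) x).1 (Subgroup.mem_inf.1 hx).1,
      mul_mem (mul_mem (Subgroup.mem_inf.1 hh).2 (Subgroup.mem_inf.1 hx).2)
        (inv_mem (Subgroup.mem_inf.1 hh).2)⟩
  -- `g = u · (h₁ n h₂) · v`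
  set m : GL D.Idx F := h1 * (n : GL D.Idx F) * h2 with hm
  set v : GL D.Idx F := h2⁻¹ * v' * h2 with hvdef
  have hv : v ∈ (glSys hS).Ubar ⊓ W.Tw := by simpa using hnorm h2⁻¹ (inv_mem hh2) v' hv'
  have hmN : m ∈ (glSys hS).Nbar ⊓ W.Tw := by
    have hle : (glSys hS).Hbar ⊓ W.Tw ≤ (glSys hS).Nbar ⊓ W.Tw :=
      inf_le_inf_right _ (glSys hS).Hbar_le_Nbar
    exact mul_mem (mul_mem (hle hh1) (Subgroup.mem_inf.2 ⟨hNm, (n : ↥W.Tw).2⟩)) (hle hh2)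
  have eg : g = u * m * v := by
    have := congrArg Subtype.val e
    simp only [Subgroup.coe_mul] at this
    rw [this, e1, e2, hm, hvdef]
    group
  refine ⟨m, hmN, fun x hx hy => (fusion_eq (p := p) ?_ hH ?_ hnorm hu hv ?_ hx hy ?_).symm⟩
  · exact (isPGroup_Ubar hS hR p).to_le inf_le_left
  · rw [eq_bot_iff, ← (glSys hS).Ubar_inf_Hbar hS hR]
    exact inf_le_inf inf_le_left inf_le_left
  · intro h hh
    exact Subgroup.mem_inf.2 ⟨Sys.conj_mem_Hbar hS hR (Subgroup.mem_inf.1 hmN).1 (Subgroup.mem_inf.1 hh).1,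
      mul_mem (mul_mem (Subgroup.mem_inf.1 hmN).2 (Subgroup.mem_inf.1 hh).2)
        (inv_mem (Subgroup.mem_inf.1 hmN).2)⟩
  · rw [eg]

end Cfsg.Agent.ChevTwSec
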