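import Cfsg.Agent.ChevTwSec.G2Weyl
import Cfsg.Agent.ChevTwSec.Fusion
import Cfsg.Agent.Chev.FieldFix
import Mathlib.FieldTheory.Finite.Extension
import Cfsg.Agent.S1039
import Cfsg.Agent.S1059

/-! Alternating sections of G₂(q) (owner: helper33). -/

set_option autoImplicit false

namespace Cfsg.Agent.ChevTwSec

open Cfsg.Lie Cfsg.Agent.ChevGrp
open scoped MatrixGroups

/-- Torus fusion in an untwisted group. -/
theorem torus_fusion_sys {D : ChevalleyDatum} {F : Type*} [Field F] [Finite F] {len : ℕ → ℕ} (hS : Rules D F)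
    (hR : RootTable D len) (p : ℕ) [Fact p.Prime] [CharP F p]
    (hH : Nat.Coprime (Nat.card ↥((glSys hS).Hbar)) p) {g : GL D.Idx F} (hg : g ∈ (glSys hS).Gbar) :
    ∃ n ∈ (glSys hS).Nbar, ∀ x ∈ (glSys hS).Hbar,
      g * x * g⁻¹ ∈ (glSys hS).Hbar → g * x * g⁻¹ = n * x * n⁻¹ := by
  set S := glSys hS
  obtain ⟨b, hb, w, -, v, hv, rfl⟩ := S.mem_NF hS hR hg
  obtain ⟨u, hu, h, hh, rfl⟩ := (S.mem_Bbar hS hR).1 hb
  refine ⟨h * S.nW w, mul_mem (S.Hbar_le_Nbar hh) (S.nW_mem_Nbar w), fun x hx hy => ?_⟩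
  refine (fusion_eq (p := p) (isPGroup_Ubar hS hR p) hH (S.Ubar_inf_Hbar hS hR) ?_ hu
    (S.US_mono (fun r hr => hr.1) hv) ?_ hx hy ?_).symm
  · intro a ha z hz
    exact (Subgroup.mem_normalizer_iff.1 (S.Hbar_le_normalizer_Ubar hS hR ha) z).1 hz
  · intro a ha
    exact (Subgroup.mem_normalizer_iff.1
      (S.Nbar_le_normalizer hS hR (mul_mem (S.Hbar_le_Nbar hh) (S.nW_mem_Nbar w))) a).1 ha
  · simp [mul_assoc]

/-- A field extension induces an embedding of Chevalley groups. -/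
theorem exists_group_embedding {D : ChevalleyDatum} {F E : Type*} [Field F] [Field E] (hF : Rules D F)
    (hE : Rules D E) (f : F →+* E) :
    ∃ ι : ↥(D.group F) →* ↥(D.group E), Function.Injective ι := by
  let m := Matrix.GeneralLinearGroup.map (n := D.Idx) f
  have hle : D.group F ≤ (D.group E).comap m := by
    rw [ChevalleyDatum.group, Subgroup.closure_le]
    rintro g ⟨r, t, hr⟩
    have hg : g = xGL D F r t := Units.ext (by rw [val_xGL hF, ChevalleyDatum.x, dif_pos r.2]; exact hr)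
    refine Subgroup.mem_comap.2 (Subgroup.subset_closure ⟨r, f t, ?_⟩)
    show ((m g : GL D.Idx E) : Matrix D.Idx D.Idx E) = D.xMat E r (f t)
    rw [hg, Chev.FieldFix.map_xGL hF hE, val_xGL hE, ChevalleyDatum.x, dif_pos r.2]
  refine ⟨(m.comp (D.group F).subtype).codRestrict _ fun g => hle g.2, fun a b e => Subtype.ext (Units.ext ?_)⟩
  exact Matrix.map_injective f.injective (congrArg (fun z : ↥(D.group E) => (z.1.1 : Matrix D.Idx D.Idx E)) e)

/-- Transport of a section along an embedding. -/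
theorem exists_section_map {G G' A : Type*} [Group G] [Group G'] [Group A] (ι : G →* G')
    (hι : Function.Injective ι) (H : Subgroup G) (ψ : ↥H →* A) (hψ : Function.Surjective ψ) :
    ∃ (H' : Subgroup G') (ψ' : ↥H' →* A), Function.Surjective ψ' :=
  ⟨H.map ι, ψ.comp (H.equivMapOfInjective ι hι).symm.toMonoidHom,
    hψ.comp (H.equivMapOfInjective ι hι).symm.surjective⟩

theorem card_Hbar_G2 {F : Type*} [Field F] [Finite F] (hS : Rules chevG2 F) :
    Nat.card ↥(chevG2.diagonalSubgroup F) = (Nat.card F - 1) ^ 2 ∧ rootKer chevG2 F = ⊥ := by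
  have h0 : rootKer chevG2 F = ⊥ := Chev.FieldFix.rootKer_eq_bot unimodular_G2
  refine ⟨?_, h0⟩
  have h := card_diagonal_mul_card_rootKer hS
  rw [h0, Subgroup.card_bot, mul_one] at h
  exact h

theorem sections_G2 {F : Type*} [Field F] [Fintype F] (p : ℕ) [Fact p.Prime] [CharP F p]
    {r : ℕ} (H : Subgroup ↥(chevG2.group F)) (ψ : ↥H →* ↥(alternatingGroup (Fin r)))
    (hψ : Function.Surjective ψ) :
    (Fintype.card F % 5 = 1 → r ≤ 6) ∧ (Fintype.card F % 4 = 1 → r ≤ 7) := by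
  have hS : Rules chevG2 F := Chev.rules_of_mem F (by simp)
  obtain ⟨len, hR⟩ := hS.root
  set S := glSys hS with hSdef
  set q := Fintype.card F with hq
  have hq2 : 2 ≤ q := Fintype.one_lt_card
  obtain ⟨hHc, hker0⟩ := card_Hbar_G2 hS
  rw [Nat.card_eq_fintype_card (α := F)] at hHc
  have hle := thm_S1043 hS
  have hHN : chevG2.diagonalSubgroup F ≤ chevG2.monomialSubgroup F := le_sup_left
  obtain ⟨φ, hφ, hker, -⟩ := Cfsg.Agent.S1039.result (F := F) (chevG2, ⟨2, CoxeterMatrix.G₂⟩) (by simp)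
  set T := (chevG2.diagonalSubgroup F).subgroupOf (chevG2.group F) with hT
  set N := (chevG2.monomialSubgroup F).subgroupOf (chevG2.group F) with hN
  let e : ↥N ≃* ↥(chevG2.monomialSubgroup F) := Subgroup.subgroupOfEquivOfLe hle.2.1
  have hkerT : (φ.comp e.toMonoidHom).ker = T.subgroupOf N := by
    ext x
    rw [← MonoidHom.comap_ker, hker]
    rfl
  have hcop : Nat.Coprime (Nat.card ↥(S.Hbar)) p := by
    rw [hSdef, ← diagonalSubgroup_eq hS hR, hHc]
    refine Nat.Coprime.pow_left 2 (Nat.Coprime.symm ((Fact.out : p.Prime).coprime_iff_not_dvd.2 fun hd => ?_))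
    obtain ⟨a, hp, ha⟩ := FiniteField.card F p
    have h1 : p ∣ q := by rw [hq, ha]; exact dvd_pow_self p a.ne_zero
    have h2 : p ∣ 1 := by
      have := Nat.dvd_sub h1 hd
      rwa [show q - (q - 1) = 1 by omega] at this
    exact hp.one_lt.ne' (Nat.dvd_one.1 h2)
  have hmain := section_bound T N (fun x hx => Subgroup.mem_subgroupOf.2 (hHN hx)) (φ.comp e.toMonoidHom)
    (hφ.comp e.surjective) hkerT
    (fun a ha b hb => Subtype.ext (glSys_Hbar_comm hS hR _ (by
      rw [← diagonalSubgroup_eq hS hR]; exact ha) _ (by rw [← diagonalSubgroup_eq hS hR]; exact hb)))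
    (fun g => by
      obtain ⟨n, hn, hf⟩ := torus_fusion_sys hS hR p hcop (g := (g : GL chevG2.Idx F))
        (by rw [← group_eq hS]; exact g.2)
      rw [← monomialSubgroup_eq hS hR] at hn
      refine ⟨⟨n, hle.2.1 hn⟩, hn, fun x hx hgx => Subtype.ext (hf _ ?_ ?_)⟩
      · rw [← diagonalSubgroup_eq hS hR]; exact hx
      · rw [← diagonalSubgroup_eq hS hR]; exact hgx)
    H ψ hψ
  -- the index of the torus
  have hTc : Nat.card ↥T = (q - 1) ^ 2 := by
    rw [hT, Nat.card_congr (Subgroup.subgroupOfEquivOfLe (hHN.trans hle.2.1)).toEquiv, hHc]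
  have hidx : T.index = q ^ 6 * (q + 1) ^ 2 * (q ^ 4 + q ^ 2 + 1) := by
    have h := T.card_mul_index
    rw [hTc, Cfsg.Agent.S1059.result (F := F) hq.symm] at h
    refine Nat.eq_of_mul_eq_mul_left (pow_pos (show 0 < q - 1 by omega) 2) (h.trans ?_)
    obtain ⟨k, hk⟩ : ∃ k, q = k + 1 := ⟨q - 1, by omega⟩
    rw [hk, Nat.add_sub_cancel]
    have e2 : (k + 1) ^ 2 - 1 = k * (k + 1 + 1) := Nat.sub_eq_of_eq_add (by ring)
    have e6 : (k + 1) ^ 6 - 1 = k * ((k + 1 + 1) * ((k + 1) ^ 4 + (k + 1) ^ 2 + 1)) :=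
      Nat.sub_eq_of_eq_add (by ring)
    rw [e2, e6]
    ring
  refine ⟨fun h5 => hmain.1 ?_, fun h4 => hmain.2 ?_ ?_⟩
  · rw [hidx, Nat.dvd_iff_mod_eq_zero]
    simp [Nat.mul_mod, Nat.add_mod, Nat.pow_mod, h5]
  · obtain ⟨j, hj⟩ : ∃ j, q = 4 * j + 1 := ⟨q / 4, by omega⟩
    refine ⟨(4 * j + 1) ^ 6 * (2 * j + 1) ^ 2 * ((4 * j + 1) ^ 4 + (4 * j + 1) ^ 2 + 1), ?_, ?_⟩
    · rw [hidx, hj]; ring
    · rw [Nat.dvd_iff_mod_eq_zero]
      simp [Nat.mul_mod, Nat.add_mod, Nat.pow_mod]
  · -- involutions of the torus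
    let τ := S.tau hS hR (glSys_HMul hS hR)
    have hτ : Function.Injective τ := (injective_iff_map_eq_one _).2 fun c hc => by
      have := (S.θ_tau_eq_one_iff hS hR (glSys_HMul hS hR) c).1 hc
      rwa [hker0, Subgroup.mem_bot] at this
    have hcard : Nat.card {c : Fin chevG2.rank → Fˣ // ∀ i, c i = 1 ∨ c i = -1} ≤ 4 := by
      have hsurj : Function.Surjective fun b : Fin chevG2.rank → Fin 2 =>
          (⟨fun i => if b i = 0 then 1 else -1, fun i => by by_cases h : b i = 0 <;> simp [h]⟩ :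
            {c : Fin chevG2.rank → Fˣ // ∀ i, c i = 1 ∨ c i = -1}) := by
        intro c
        classical
        refine ⟨fun i => if c.1 i = 1 then 0 else 1, Subtype.ext (funext fun i => ?_)⟩
        show (if (if c.1 i = 1 then (0 : Fin 2) else 1) = 0 then (1 : Fˣ) else -1) = c.1 i
        by_cases h' : c.1 i = 1
        · rw [if_pos h', if_pos rfl, h']
        · rw [if_neg h', if_neg (by decide)]
          exact ((c.2 i).resolve_left h').symm
      refine (Nat.card_le_card_of_surjective _ hsurj).trans ?_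
      rw [Nat.card_fun, Nat.card_fin, Nat.card_fin]
      decide
    refine le_trans (Nat.card_le_card_of_surjective
      (fun c : {c : Fin chevG2.rank → Fˣ // ∀ i, c i = 1 ∨ c i = -1} => (⟨⟨τ c.1, ?_⟩, ?_, ?_⟩ :
        {x : ↥(chevG2.group F) // x ∈ T ∧ x * x = 1})) ?_) hcard
    · refine hle.2.1 (hHN ?_)
      rw [diagonalSubgroup_eq hS hR, ← S.tau_range hS hR (glSys_HMul hS hR)]
      exact ⟨c.1, rfl⟩
    · show τ c.1 ∈ chevG2.diagonalSubgroup F
      rw [diagonalSubgroup_eq hS hR, ← S.tau_range hS hR (glSys_HMul hS hR)]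
      exact ⟨c.1, rfl⟩
    · refine Subtype.ext ?_
      show τ c.1 * τ c.1 = 1
      rw [← map_mul, show c.1 * c.1 = 1 from funext fun i => by rcases c.2 i with h | h <;> simp [h], map_one]
    · rintro ⟨⟨x, hxG⟩, hxT, hx2⟩
      have hx : x ∈ chevG2.diagonalSubgroup F := hxT
      rw [diagonalSubgroup_eq hS hR, ← S.tau_range hS hR (glSys_HMul hS hR)] at hx
      obtain ⟨c, rfl⟩ := hx
      have hc : c * c = 1 := hτ (by rw [map_mul, map_one]; exact congrArg Subtype.val hx2)
      refine ⟨⟨c, fun i => ?_⟩, rfl⟩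
      have h : ((c i : F)) ^ 2 = 1 := by
        rw [pow_two, ← Units.val_mul, show c i * c i = 1 from congrFun hc i, Units.val_one]
      rcases sq_eq_one_iff.1 h with e | e
      · exact Or.inl (Units.ext e)
      · exact Or.inr (Units.ext (by simpa using e))

theorem alt_section_G2 {F : Type*} [Field F] [Fintype F] (p : ℕ) [Fact p.Prime] [CharP F p]
    {r : ℕ} (H : Subgroup ↥(chevG2.group F)) (ψ : ↥H →* ↥(alternatingGroup (Fin r)))
    (hψ : Function.Surjective ψ) : r ≤ 6 + (if p = 5 then 1 else 0) := by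
  obtain ⟨a, hp, ha⟩ := FiniteField.card F p
  split_ifs with h5
  · refine (sections_G2 p H ψ hψ).2 ?_
    rw [ha, h5, Nat.pow_mod]
    simp
  · haveI : Fintype (FiniteField.Extension F p 4) := Fintype.ofFinite _
    let E := FiniteField.Extension F p 4
    haveI : CharP E p := charP_of_injective_algebraMap (algebraMap F E).injective p
    obtain ⟨ι, hι⟩ := exists_group_embedding (D := chevG2) (Chev.rules_of_mem F (by simp))
      (Chev.rules_of_mem E (by simp)) (algebraMap F E)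
    obtain ⟨H', ψ', hψ'⟩ := exists_section_map ι hι H ψ hψ
    refine (sections_G2 p H' ψ' hψ').1 ?_
    rw [← Nat.card_eq_fintype_card, FiniteField.natCard_extension, Nat.card_eq_fintype_card, ha, ← pow_mul]
    have hne : p % 5 ≠ 0 := fun h => h5 ((Nat.prime_dvd_prime_iff_eq (by norm_num) hp).1 (Nat.dvd_of_mod_eq_zero h)).symm
    rw [mul_comm, pow_mul, Nat.pow_mod, Nat.pow_mod p]
    have : p % 5 < 5 := Nat.mod_lt _ (by norm_num)
    interval_cases h : p % 5 <;> simp_all

end Cfsg.Agent.ChevTwSec
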