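import Mathlib.GroupTheory.Coxeter.Basic
import Mathlib.GroupTheory.SpecificGroups.Dihedral
import Cfsg.Agent.ChevTwSec.AltSmall

/-!
The Coxeter group of type `G₂` (exponent six, a four-group) and the resulting bound on alternating sections of a
group with a torus having that quotient in its normaliser (owner: helper33).
-/

set_option autoImplicit false

namespace Cfsg.Agent.ChevTwSec

/-- The Coxeter group of type `G₂`. -/
abbrev WG : Type := CoxeterMatrix.G₂.Group

/-- Its two simple reflections. -/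
def sG (i : Fin 2) : WG := CoxeterMatrix.G₂.simple i

/-- The product of the simple reflections. -/
def rotG : WG := sG 0 * sG 1

theorem sG_sq (i : Fin 2) : sG i * sG i = 1 := CoxeterMatrix.G₂.toCoxeterSystem.simple_mul_simple_self i

theorem rotG_six : rotG ^ 6 = 1 := CoxeterMatrix.G₂.toCoxeterSystem.simple_mul_simple_pow 0 1

theorem sG_conj (k : ℤ) : sG 0 * rotG ^ k * sG 0 = (rotG ^ k)⁻¹ := by
  have hs : (sG 0)⁻¹ = sG 0 := inv_eq_of_mul_eq_one_right (sG_sq 0)
  have hs1 : (sG 1)⁻¹ = sG 1 := inv_eq_of_mul_eq_one_right (sG_sq 1)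
  have h : sG 0 * rotG * (sG 0)⁻¹ = rotG⁻¹ := by
    rw [rotG, mul_inv_rev, hs1, hs, ← mul_assoc, sG_sq, one_mul]
  calc sG 0 * rotG ^ k * sG 0 = sG 0 * rotG ^ k * (sG 0)⁻¹ := by rw [hs]
    _ = (rotG ^ k)⁻¹ := by rw [← conj_zpow, h, inv_zpow]

theorem exists_form (w : WG) : ∃ k : ℤ, w = rotG ^ k ∨ w = rotG ^ k * sG 0 := by
  have h0 : ∀ w : WG, (∃ k : ℤ, w = rotG ^ k ∨ w = rotG ^ k * sG 0) →
      ∃ k : ℤ, sG 0 * w = rotG ^ k ∨ sG 0 * w = rotG ^ k * sG 0 := by
    rintro w ⟨k, rfl | rfl⟩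
    · exact ⟨-k, Or.inr (by rw [zpow_neg, ← sG_conj k, mul_assoc (sG 0 * rotG ^ k), sG_sq, mul_one])⟩
    · exact ⟨-k, Or.inl (by rw [zpow_neg, ← sG_conj k, mul_assoc])⟩
  induction w using CoxeterMatrix.G₂.toCoxeterSystem.simple_induction_left with
  | one => exact ⟨0, Or.inl (zpow_zero _).symm⟩
  | mul_simple_left w i ih =>
    show ∃ k : ℤ, sG i * w = rotG ^ k ∨ sG i * w = rotG ^ k * sG 0
    fin_cases i
    · exact h0 w ih
    · obtain ⟨k, hk⟩ := ih
      have h1 : sG 1 * w = sG 0 * (rotG * w) := by rw [rotG, ← mul_assoc, ← mul_assoc, sG_sq, one_mul]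
      show ∃ k : ℤ, sG 1 * w = rotG ^ k ∨ sG 1 * w = rotG ^ k * sG 0
      rw [h1]
      refine h0 _ ⟨k + 1, hk.imp ?_ ?_⟩ <;> rintro rfl <;> rw [add_comm, zpow_one_add]
      exact (mul_assoc _ _ _).symm

theorem wg_pow_six (w : WG) : w ^ 6 = 1 := by
  obtain ⟨k, rfl | rfl⟩ := exists_form w
  · rw [← zpow_natCast, zpow_comm, zpow_natCast, rotG_six, one_zpow]
  · have h : (rotG ^ k * sG 0) ^ 2 = 1 := by
      rw [pow_two, mul_assoc, ← mul_assoc (sG 0), sG_conj, mul_inv_cancel]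
    rw [show 6 = 2 * 3 from rfl, pow_mul, h, one_pow]

/-- The dihedral image of a simple reflection. -/
def dihG (i : Fin 2) : DihedralGroup 6 := DihedralGroup.sr (i.val : ZMod 6)

theorem dihG_lift : CoxeterMatrix.G₂.IsLiftable dihG := by
  unfold CoxeterMatrix.IsLiftable
  intro i j
  fin_cases i <;> fin_cases j <;> decide

/-- The map to the dihedral group. -/
def toDih : WG →* DihedralGroup 6 := CoxeterMatrix.G₂.toCoxeterSystem.lift ⟨dihG, dihG_lift⟩

theorem toDih_sG (i : Fin 2) : toDih (sG i) = dihG i :=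
  CoxeterMatrix.G₂.toCoxeterSystem.lift_apply_simple dihG_lift i

theorem rotG_three_sq : rotG ^ 3 * rotG ^ 3 = 1 := by rw [← pow_add, rotG_six]

theorem comm_rot_three : rotG ^ 3 * sG 0 = sG 0 * rotG ^ 3 := by
  have h := sG_conj 3
  rw [zpow_ofNat, inv_eq_of_mul_eq_one_right rotG_three_sq] at h
  calc rotG ^ 3 * sG 0 = sG 0 * rotG ^ 3 * sG 0 * sG 0 := by rw [h]
    _ = sG 0 * rotG ^ 3 := by rw [mul_assoc, sG_sq, mul_one]

/-- The elements of a four-group of `W`. -/
def fourElt (a : Fin 2 × Fin 2) : WG := (rotG ^ 3) ^ a.1.val * sG 0 ^ a.2.val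

theorem fourElt_mul (a b : Fin 2 × Fin 2) : fourElt a * fourElt b = fourElt (a + b) := by
  have hc : Commute (rotG ^ 3) (sG 0) := comm_rot_three
  have e : ∀ (x : WG), x * x = 1 → ∀ i j : Fin 2, x ^ i.val * x ^ j.val = x ^ (i + j).val := by
    intro x hx i j
    fin_cases i <;> fin_cases j <;> simp [hx]
  rw [fourElt, fourElt, fourElt, mul_assoc, ← mul_assoc (sG 0 ^ _), ← (hc.pow_pow _ _).eq, mul_assoc (_ ^ b.1.val),
    ← mul_assoc, e _ (sG_sq 0), e _ rotG_three_sq]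
  rfl

/-- A four-group of `W`. -/
def fourG : Subgroup WG where
  carrier := Set.range fourElt
  one_mem' := ⟨0, by simp [fourElt]⟩
  mul_mem' := by
    rintro _ _ ⟨a, rfl⟩ ⟨b, rfl⟩
    exact ⟨a + b, (fourElt_mul a b).symm⟩
  inv_mem' := by
    rintro _ ⟨a, rfl⟩
    refine ⟨a, (inv_eq_of_mul_eq_one_right ?_).symm⟩
    rw [fourElt_mul, show a + a = 0 by revert a; decide]
    simp [fourElt]

theorem fourG_comm : ∀ x ∈ fourG, ∀ y ∈ fourG, x * y = y * x := by
  rintro _ ⟨a, rfl⟩ _ ⟨b, rfl⟩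
  rw [fourElt_mul, fourElt_mul, add_comm]

theorem card_fourG : Nat.card ↥fourG = 4 := by
  have hinj : Function.Injective fun a => toDih (fourElt a) := by
    have e : ∀ a, toDih (fourElt a) = ((dihG 0 * dihG 1) ^ 3) ^ a.1.val * dihG 0 ^ a.2.val := fun a => by
      simp [fourElt, rotG, toDih_sG]
    simp only [e]
    decide
  have hinj' : Function.Injective fourElt := fun a b h => hinj (congrArg toDih h)
  show Nat.card ↥(Set.range fourElt) = 4
  rw [Nat.card_range_of_injective hinj', Nat.card_prod]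
  simp

/-- The bound on alternating sections. -/
theorem section_bound {G : Type*} [Group G] [Finite G] (T N : Subgroup G) (hTN : T ≤ N) (φ : ↥N →* WG)
    (hφ : Function.Surjective φ) (hker : φ.ker = T.subgroupOf N)
    (hcomm : ∀ a ∈ T, ∀ b ∈ T, a * b = b * a)
    (hfus : ∀ g : G, ∃ n ∈ N, ∀ x ∈ T, g * x * g⁻¹ ∈ T → g * x * g⁻¹ = n * x * n⁻¹)
    {r : ℕ} (H : Subgroup G) (ψ : ↥H →* ↥(alternatingGroup (Fin r))) (hψ : Function.Surjective ψ) :
    (¬ 5 ∣ T.index → r ≤ 6) ∧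
      ((∃ X : ℕ, T.index = 4 * X ∧ ¬ 2 ∣ X) → Nat.card {x : G // x ∈ T ∧ x * x = 1} ≤ 4 → r ≤ 7) := by
  refine ⟨fun h5 => no_alt_seven_of_five T hcomm h5 (fun g => ?_) H ψ hψ, fun ⟨X, hX, h2X⟩ h4 => ?_⟩
  · obtain ⟨n, hn, hf⟩ := hfus g
    refine ⟨n, ?_, fun x hx => ?_, hf⟩
    · have h : (⟨n, hn⟩ : ↥N) ^ 6 ∈ φ.ker := by rw [MonoidHom.mem_ker, map_pow, wg_pow_six]
      rw [hker] at h
      exact h
    · have h : (⟨n, hn⟩ : ↥N) * ⟨x, hTN hx⟩ * (⟨n, hn⟩ : ↥N)⁻¹ ∈ φ.ker :=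
        φ.normal_ker.conj_mem _ (by rw [hker]; exact Subgroup.mem_subgroupOf.2 hx) _
      rw [hker] at h
      exact h
  · refine no_alt_eight_of_rank T ((fourG.comap φ).map N.subtype) hcomm ?_ ?_ h4 H ψ hψ
    · rintro _ ⟨a, ha, rfl⟩ _ ⟨b, hb, rfl⟩
      have h : a * b * a⁻¹ * b⁻¹ ∈ φ.ker := by
        simp only [MonoidHom.mem_ker, map_mul, map_inv]
        rw [fourG_comm _ ha _ hb]
        group
      rw [hker] at h
      exact h
    · haveI : Finite WG := Finite.of_surjective φ hφ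
      have hN := N.card_mul_index
      have h1 : Nat.card ↥N = Nat.card ↥T * Nat.card WG := by
        rw [← φ.ker.card_mul_index, Subgroup.index_ker, φ.range_eq_top.2 hφ, Subgroup.card_top, hker,
          Nat.card_congr (Subgroup.subgroupOfEquivOfLe hTN).toEquiv]
      have h2 : Nat.card ↥((fourG.comap φ).map N.subtype) = Nat.card ↥T * 4 := by
        rw [Subgroup.card_map_of_injective Subtype.val_injective]
        apply Nat.eq_of_mul_eq_mul_right (Nat.pos_of_ne_zero (Subgroup.index_ne_zero_of_finite (H := fourG)))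
        rw [← Subgroup.index_comap_of_surjective _ hφ, Subgroup.card_mul_index, h1,
          Subgroup.index_comap_of_surjective _ hφ, mul_assoc, ← card_fourG, Subgroup.card_mul_index]
      have h3 := ((fourG.comap φ).map N.subtype).card_mul_index
      rw [← T.card_mul_index, h2, hX, mul_assoc] at h3
      have h5 := Nat.eq_of_mul_eq_mul_left Nat.card_pos h3
      have h6 : ((fourG.comap φ).map N.subtype).index = X := by omega
      rw [h6]
      exact h2X

end Cfsg.Agent.ChevTwSec
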